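import Mathlib
import Cfsg.Agent.Lib.ZStar.RankOne
import Cfsg.Agent.Lib.Invol.Dihedral
import Cfsg.Agent.Lib.Solv.Coprime
import Cfsg.Agent.Lib.Transfer.NormalPComplement

/-!
Consequences of the `Z*` theorem for an isolated involution `z`.
-/

set_option autoImplicit false
set_option maxHeartbeats 400000

namespace Cfsg.Lib.Invol

open Subgroup
open scoped Pointwise

variable {G : Type*} [Group G]

/-- Square roots in a finite group are unique among elements of odd order. -/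
theorem eq_of_sq_eq {a b : G} (ha : Odd (orderOf a)) (hb : Odd (orderOf b)) (h : a * a = b * b) :
    a = b := by
  obtain ⟨m, hm⟩ := ha.mul hb
  have key : ∀ c : G, orderOf c ∣ 2 * m + 1 → c = (c * c) ^ (m + 1) := fun c hc => by
    rw [← sq, ← pow_mul, show 2 * (m + 1) = (2 * m + 1) + 1 by ring, pow_succ,
      orderOf_dvd_iff_pow_eq_one.1 hc, one_mul]
  rw [key a (hm ▸ dvd_mul_right _ _), key b (hm ▸ dvd_mul_left _ _), h]

theorem odd_orderOf_of_mem [Finite G] {W : Subgroup G} (hW : Odd (Nat.card W)) {a : G} (ha : a ∈ W) :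
    Odd (orderOf a) :=
  Odd.of_dvd_nat hW (orderOf_dvd_natCard W ha)

theorem exists_sq_eq [Finite G] {W : Subgroup G} (hW : Odd (Nat.card W)) {m : G} (hm : m ∈ W) :
    ∃ r ∈ W, r * r = m := by
  obtain ⟨j, hj⟩ := odd_orderOf_of_mem hW hm
  refine ⟨m ^ (j + 1), pow_mem hm _, ?_⟩
  rw [← pow_add, show j + 1 + (j + 1) = (2 * j + 1) + 1 by ring, ← hj, pow_succ, pow_orderOf_eq_one,
    one_mul]

/-- `k` has odd order and is inverted by `z`. -/
abbrev OddInv (z k : G) : Prop := Odd (orderOf k) ∧ z * k * z⁻¹ = k⁻¹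

variable [Finite G]

theorem oddInv_conj_sq {z k : G} (hz : orderOf z = 2) (h : z * k * z⁻¹ = k⁻¹) :
    k * z * k⁻¹ * z = k * k := by
  have e : z * k⁻¹ * z⁻¹ = k := by
    rw [show z * k⁻¹ * z⁻¹ = (z * k * z⁻¹)⁻¹ by group, h, inv_inv]
  calc k * z * k⁻¹ * z = k * (z * k⁻¹ * z⁻¹) * (z * z) := by group
    _ = k * k := by rw [e, mul_self_of_orderTwo hz, mul_one]

/-- The inverted elements of odd order represent the cosets of `C(z)`. -/
theorem existsUnique_oddInv {z : G} (hz : Cfsg.IsIsolatedInvolution z) {H : Subgroup G}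
    (hH : z ∈ normalizer (H : Set G)) {g : G} (hg : g ∈ H) :
    ∃ k ∈ H, OddInv z k ∧ g⁻¹ * k ∈ centralizer ({z} : Set G) ∧
      ∀ k', OddInv z k' → g⁻¹ * k' ∈ centralizer ({z} : Set G) → k' = k := by
  obtain ⟨j, hj⟩ := Cfsg.Lib.ZStar.odd_orderOf_mul hz g
  set x := g * z * g⁻¹ with hxdef
  set d := z * x with hd
  have hx : orderOf x = 2 := (Cfsg.Lib.ZStar.isolated_conj hz g).1
  have hdH : d ∈ H := by
    have e : d = (z * g * z⁻¹) * g⁻¹ := by
      rw [hd, hxdef, inv_of_orderTwo hz.1]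
      group
    rw [e]
    exact mul_mem ((mem_normalizer_iff.1 hH g).1 hg) (inv_mem hg)
  set k := (d ^ (j + 1))⁻¹ with hk
  have hinv : z * k * z⁻¹ = k⁻¹ := by
    have := Cfsg.Lib.ZStar.conj_mul_pow_of_involution hz.1 hx (j + 1)
    rw [← hd] at this
    rw [hk, show z * (d ^ (j + 1))⁻¹ * z⁻¹ = (z * d ^ (j + 1) * z⁻¹)⁻¹ by group, this]
  have hodd : Odd (orderOf k) := by
    rw [hk, orderOf_inv]
    exact Odd.of_dvd_nat ⟨j, hj⟩ (orderOf_pow_dvd _)
  have hk2 : k * k = x * z := by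
    rw [hk, ← mul_inv_rev, ← pow_add, show j + 1 + (j + 1) = (2 * j + 1) + 1 by ring, ← hj, pow_succ,
      pow_orderOf_eq_one, one_mul, hd, mul_inv_rev, inv_of_orderTwo hx, inv_of_orderTwo hz.1]
  have key : ∀ k' : G, OddInv z k' → (g⁻¹ * k' ∈ centralizer ({z} : Set G) ↔ k' = k) := by
    intro k' hk'
    have hsq := oddInv_conj_sq hz.1 hk'.2
    constructor
    · intro hc
      refine eq_of_sq_eq hk'.1 hodd ?_
      rw [hk2, ← hsq]
      congr 1
      have := mem_centralizer_singleton_iff.1 hc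
      calc k' * z * k'⁻¹ = g * (g⁻¹ * k' * z) * k'⁻¹ := by group
        _ = g * (z * (g⁻¹ * k')) * k'⁻¹ := by rw [this]
        _ = x := by rw [hxdef]; group
    · rintro rfl
      rw [hk2] at hsq
      have e : k * z * k⁻¹ = x := mul_right_cancel hsq
      refine mem_centralizer_singleton_iff.2 ?_
      calc g⁻¹ * k * z = g⁻¹ * (k * z * k⁻¹) * k := by group
        _ = z * (g⁻¹ * k) := by rw [e, hxdef]; group
  exact ⟨k, inv_mem (pow_mem hdH _), ⟨hodd, hinv⟩, (key k ⟨hodd, hinv⟩).2 rfl,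
    fun k' hk' => (key k' hk').1⟩

theorem card_oddInv {z : G} (hz : Cfsg.IsIsolatedInvolution z) {H : Subgroup G}
    (hH : z ∈ normalizer (H : Set G)) :
    Nat.card {k : G // k ∈ H ∧ OddInv z k} = (H ⊓ centralizer ({z} : Set G)).relIndex H := by
  rw [relIndex, index_eq_card]
  let f : {k : G // k ∈ H ∧ OddInv z k} → ↥H ⧸ (H ⊓ centralizer ({z} : Set G)).subgroupOf H :=
    fun k => QuotientGroup.mk ⟨k.1, k.2.1⟩
  refine Nat.card_eq_of_bijective f ⟨fun a b h => ?_, fun q => ?_⟩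
  · have h' := QuotientGroup.eq.1 h
    have hmem : (a.1)⁻¹ * b.1 ∈ centralizer ({z} : Set G) := h'.2
    obtain ⟨k, -, -, -, huniq⟩ := existsUnique_oddInv hz hH a.2.1
    exact Subtype.ext ((huniq a.1 a.2.2 (by rw [inv_mul_cancel]; exact one_mem _)).trans
      (huniq b.1 b.2.2 hmem).symm)
  · obtain ⟨⟨g, hg⟩, rfl⟩ := QuotientGroup.mk_surjective q
    obtain ⟨k, hk, hki, hkc, -⟩ := existsUnique_oddInv hz hH hg
    refine ⟨⟨k, hk, hki⟩, QuotientGroup.eq.2 ?_⟩
    refine ⟨H.mul_mem (H.inv_mem hk) hg, ?_⟩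
    have := inv_mem hkc
    rwa [mul_inv_rev, inv_inv] at this

theorem oddInv_mem_oddCore {z k : G} (hz : Cfsg.IsIsolatedInvolution z) (h : OddInv z k) :
    k ∈ Cfsg.oddCore G := by
  have h1 := Cfsg.Lib.ZStar.zstar hz k
  rw [h.2] at h1
  obtain ⟨j, hj⟩ := h.1
  have : k = ((k⁻¹ * k⁻¹) ^ (j + 1))⁻¹ := by
    rw [← mul_inv_rev, inv_pow, inv_inv, ← sq, ← pow_mul,
      show 2 * (j + 1) = (2 * j + 1) + 1 by ring, ← hj, pow_succ, pow_orderOf_eq_one, one_mul]
  rw [this]
  exact inv_mem (pow_mem h1 _)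

theorem oddCore_sup_centralizer {z : G} (hz : Cfsg.IsIsolatedInvolution z) :
    Cfsg.oddCore G ⊔ centralizer ({z} : Set G) = ⊤ := by
  refine eq_top_iff.2 fun g _ => ?_
  obtain ⟨k, -, hk, hc, -⟩ := existsUnique_oddInv hz (H := ⊤) (mem_normalizer_iff.2 fun _ => by simp)
    (mem_top g)
  have : g = k * (g⁻¹ * k)⁻¹ := by group
  rw [this]
  exact mul_mem_sup (oddInv_mem_oddCore hz hk) (inv_mem hc)

theorem centralizer_quotient {z : G} (hz : Cfsg.IsIsolatedInvolution z) (N : Subgroup G) [N.Normal] :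
    centralizer ({(QuotientGroup.mk z : G ⧸ N)} : Set (G ⧸ N)) =
      (centralizer ({z} : Set G)).map (QuotientGroup.mk' N) := by
  refine le_antisymm (fun q hq => ?_) ?_
  · obtain ⟨g, rfl⟩ := QuotientGroup.mk_surjective q
    have hc := mem_centralizer_singleton_iff.1 hq
    have hmem : g * z * g⁻¹ ∈ N ⊔ zpowers z := by
      have hN : g * z * g⁻¹ * z⁻¹ ∈ N := by
        rw [← QuotientGroup.eq_one_iff, QuotientGroup.mk_mul, QuotientGroup.mk_mul, QuotientGroup.mk_mul,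
          hc, QuotientGroup.mk_inv, QuotientGroup.mk_inv, mul_inv_cancel_right, mul_inv_cancel]
      have := mul_mem_sup hN (mem_zpowers z)
      rwa [inv_mul_cancel_right] at this
    obtain ⟨h, hh, e⟩ := Cfsg.Lib.ZStar.exists_conj_mem hz (mem_sup_right (mem_zpowers z)) hmem
    rw [← SetLike.mem_coe, normal_mul] at hh
    obtain ⟨n, hn, w, hw, rfl⟩ := hh
    obtain ⟨i, rfl⟩ := mem_zpowers_iff.1 hw
    have hez : n * z * n⁻¹ = g * z * g⁻¹ := by
      rw [← e]
      group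
    refine ⟨n⁻¹ * g, mem_centralizer_singleton_iff.2 ?_, ?_⟩
    · calc n⁻¹ * g * z = n⁻¹ * (g * z * g⁻¹) * g := by group
        _ = n⁻¹ * (n * z * n⁻¹) * g := by rw [hez]
        _ = z * (n⁻¹ * g) := by group
    · rw [QuotientGroup.mk'_apply, QuotientGroup.mk_mul, (QuotientGroup.eq_one_iff _).2 (inv_mem hn),
        one_mul]
  · rintro _ ⟨c, hc, rfl⟩
    refine mem_centralizer_singleton_iff.2 ?_
    rw [QuotientGroup.mk'_apply, ← QuotientGroup.mk_mul, mem_centralizer_singleton_iff.1 hc,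
      QuotientGroup.mk_mul]

theorem conj_in_centralizer {z : G} (hz : Cfsg.IsIsolatedInvolution z) {H : Subgroup G}
    (hzH : z ∈ normalizer (H : Set G)) {x y h : G} (hxz : Commute x z)
    (hyz : Commute y z) (hh : h ∈ H) (hconj : h * x * h⁻¹ = y) :
    ∃ c ∈ H, Commute c z ∧ c * x * c⁻¹ = y := by
  set M := centralizer ({x} : Set G) ⊓ (H ⊔ zpowers z) with hM
  have hzM : z ∈ M :=
    ⟨mem_centralizer_singleton_iff.2 hxz.symm, mem_sup_right (mem_zpowers z)⟩
  have hmem : h⁻¹ * z * h⁻¹⁻¹ ∈ M := by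
    refine ⟨mem_centralizer_singleton_iff.2 ?_,
      (H ⊔ zpowers z).mul_mem ((H ⊔ zpowers z).mul_mem (mem_sup_left (H.inv_mem hh)) hzM.2)
        ((H ⊔ zpowers z).inv_mem (mem_sup_left (H.inv_mem hh)))⟩
    rw [inv_inv]
    calc h⁻¹ * z * h * x = h⁻¹ * (z * y) * h := by rw [← hconj]; group
      _ = h⁻¹ * (y * z) * h := by rw [hyz.eq]
      _ = x * (h⁻¹ * z * h) := by rw [← hconj]; group
  obtain ⟨c, hc, e⟩ := Cfsg.Lib.ZStar.exists_conj_mem hz hzM hmem
  obtain ⟨hcx, hcH⟩ := hc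
  have hcH' : c ∈ ((H ⊔ zpowers z : Subgroup G) : Set G) := hcH
  rw [coe_mul_of_right_le_normalizer_left _ _ (zpowers_le.2 hzH)] at hcH'
  obtain ⟨c₀, hc₀, w, hw, rfl⟩ := hcH'
  obtain ⟨i, rfl⟩ := mem_zpowers_iff.1 hw
  have hzi : Commute (z ^ i) x := (hxz.symm).zpow_left i
  have hc0x : Commute c₀ x := by
    have h1 : Commute (c₀ * z ^ i) x := mem_centralizer_singleton_iff.1 hcx
    simpa using h1.mul_left hzi.inv_left
  have e' : c₀ * z * c₀⁻¹ = h⁻¹ * z * h := by
    rw [inv_inv] at e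
    rw [← e]
    group
  refine ⟨h * c₀, mul_mem hh hc₀, ?_, ?_⟩
  · show h * c₀ * z = z * (h * c₀)
    calc h * c₀ * z = h * (c₀ * z * c₀⁻¹) * c₀ := by group
      _ = z * (h * c₀) := by rw [e']; group
  · calc h * c₀ * x * (h * c₀)⁻¹ = h * (c₀ * x) * c₀⁻¹ * h⁻¹ := by group
      _ = h * (x * c₀) * c₀⁻¹ * h⁻¹ := by rw [hc0x.eq]
      _ = y := by rw [← hconj]; group

theorem not_commute_product {z : G} (hz : Cfsg.IsIsolatedInvolution z) {g h : G}
    (hne : g * z * g⁻¹ ≠ h * z * h⁻¹) : ¬ Commute (g * z * g⁻¹ * (h * z * h⁻¹)) z := by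
  intro hc
  set x := g * z * g⁻¹ with hxdef
  set y := h * z * h⁻¹ with hydef
  set d := x * y with hd
  have hx : orderOf x = 2 := (Cfsg.Lib.ZStar.isolated_conj hz g).1
  have hy : orderOf y = 2 := (Cfsg.Lib.ZStar.isolated_conj hz h).1
  have hxd : x ∈ normalizer (zpowers d : Set G) := by
    refine mem_normalizer_iff.2 fun w => ?_
    have key : ∀ w, w ∈ zpowers d → x * w * x⁻¹ ∈ zpowers d := fun w hw => by
      obtain ⟨k, rfl⟩ := mem_zpowers_iff.1 hw
      rw [left_mul_zpow hx hy, mul_inv_cancel_right]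
      exact zpow_mem_zpowers d _
    refine ⟨key w, fun hw => ?_⟩
    have := key _ hw
    rwa [inv_of_orderTwo hx, show x * (x * w * x) * x = (x * x) * w * (x * x) by group,
      mul_self_of_orderTwo hx, one_mul, mul_one] at this
  have hzc : ∀ w ∈ zpowers d, Commute z w := fun w hw => by
    obtain ⟨k, rfl⟩ := mem_zpowers_iff.1 hw
    exact (hc.symm).zpow_right k
  have hzd : z ∈ normalizer (zpowers d : Set G) :=
    centralizer_le_normalizer _ (mem_centralizer_iff.2 fun w hw => (hzc w hw).symm.eq)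
  obtain ⟨c, hcmem, e⟩ := Cfsg.Lib.ZStar.exists_conj_mem hz hzd hxd
  have hxc : Commute x d := by
    have hd' : c⁻¹ * d * c ∈ zpowers d :=
      (mem_normalizer_iff''.1 hcmem d).1 (mem_zpowers d)
    have h1 : Commute (c * z * c⁻¹) (c * (c⁻¹ * d * c) * c⁻¹) :=
      (hzc _ hd').map (MulAut.conj c)
    rw [e, show c * (c⁻¹ * d * c) * c⁻¹ = d by group] at h1
    exact h1
  have hinv : x * d * x⁻¹ = d⁻¹ := left_conj_mul hx hy
  rw [hxc.eq, mul_inv_cancel_right] at hinv
  have hodd : Odd (orderOf d) := by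
    have h1 := Cfsg.Lib.ZStar.odd_orderOf_mul (Cfsg.Lib.ZStar.isolated_conj hz g) (h * g⁻¹)
    rwa [show h * g⁻¹ * (g * z * g⁻¹) * (h * g⁻¹)⁻¹ = y by rw [hydef]; group] at h1
  have hd1 : d = 1 := eq_of_sq_eq hodd (by simp) (by
    rw [one_mul]; nth_rw 1 [hinv]; exact inv_mul_cancel d)
  exact hne (by rw [eq_inv_of_mul_eq_one_left hd1, inv_of_orderTwo hy])

theorem pResidual_iff {z : G} (hz : Cfsg.IsIsolatedInvolution z) :
    Cfsg.pResidual 2 G = ⊤ ↔ Cfsg.pResidual 2 ↥(centralizer ({z} : Set G)) = ⊤ := by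
  have : Fact (Nat.Prime 2) := ⟨Nat.prime_two⟩
  set C := centralizer ({z} : Set G) with hC
  set O := Cfsg.oddCore G with hO
  have hcop : (Nat.card O).Coprime 2 := Cfsg.Lib.Transfer.coprime_card_pPrimeCore 2
  have hOR : O ≤ Cfsg.pResidual 2 G := fun x hx =>
    Cfsg.Lib.Transfer.coprime_orderOf_mem_pResidual
      (hcop.coprime_dvd_left (orderOf_dvd_natCard O hx))
  have htop := oddCore_sup_centralizer hz
  constructor
  · intro h
    have hn : O.Normal := Cfsg.Lib.Transfer.pPrimeCore_normal 2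
    let f : ↥C →* G ⧸ O := (QuotientGroup.mk' O).comp C.subtype
    have hf : Function.Surjective f := by
      intro q
      obtain ⟨g, rfl⟩ := QuotientGroup.mk_surjective q
      have hg : g ∈ ((O ⊔ C : Subgroup G) : Set G) := htop ▸ mem_top g
      rw [normal_mul] at hg
      obtain ⟨o, ho, c, hc, rfl⟩ := hg
      refine ⟨⟨c, hc⟩, ?_⟩
      show (c : G ⧸ O) = ((o * c : G) : G ⧸ O)
      rw [QuotientGroup.mk_mul, (QuotientGroup.eq_one_iff o).2 ho, one_mul]
    have h1 := Cfsg.Lib.Transfer.map_pResidual_of_surjective (p := 2) f hf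
    have h2 := Cfsg.Lib.Transfer.map_pResidual_of_surjective (p := 2) (QuotientGroup.mk' O)
      (QuotientGroup.mk'_surjective O)
    rw [h, map_top_of_surjective _ (QuotientGroup.mk'_surjective O)] at h2
    rw [← h2] at h1
    refine eq_top_iff.2 fun c _ => ?_
    obtain ⟨r, hr, e⟩ := (h1.symm ▸ mem_top (f c) : f c ∈ (Cfsg.pResidual 2 ↥C).map f)
    have hker : ((r⁻¹ * c : ↥C) : G) ∈ O := by
      rw [← QuotientGroup.eq_one_iff]
      show f (r⁻¹ * c) = 1
      rw [map_mul, map_inv, e, inv_mul_cancel]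
    have := mul_mem hr (Cfsg.Lib.Transfer.coprime_orderOf_mem_pResidual (x := r⁻¹ * c)
      (by rw [← orderOf_coe]; exact hcop.coprime_dvd_left (orderOf_dvd_natCard O hker)))
    rwa [mul_inv_cancel_left] at this
  · intro h
    refine top_le_iff.1 (htop.ge.trans (sup_le hOR ?_))
    refine le_trans ?_ (Cfsg.Lib.Transfer.pResidual_subgroup_le (p := 2) C)
    rw [h, ← MonoidHom.range_eq_map, range_subtype]

theorem card_formula {z : G} (hz : Cfsg.IsIsolatedInvolution z) {s : G} (hs : orderOf s = 2)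
    (hsz : Commute s z) :
    Nat.card G = Nat.card (centralizer ({z} : Set G)) *
      Nat.card {k : G // Odd (orderOf k) ∧ z * k * z⁻¹ = k⁻¹ ∧ Commute k (s * z)} *
      Nat.card {k : G // Odd (orderOf k) ∧ z * k * z⁻¹ = k⁻¹ ∧ Commute k s} := by
  set W := Cfsg.oddCore G with hWdef
  have hWn : W.Normal := Cfsg.Lib.Transfer.pPrimeCore_normal 2
  have hW : Odd (Nat.card W) :=
    (Nat.coprime_two_right).1 (Cfsg.Lib.Transfer.coprime_card_pPrimeCore 2)
  set α := MulAut.conj z with hα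
  set β := MulAut.conj s with hβ
  have hcc : ∀ g, α (β g) = β (α g) := fun g => by
    show z * (s * g * s⁻¹) * z⁻¹ = s * (z * g * z⁻¹) * s⁻¹
    calc _ = (z * s) * g * (z * s)⁻¹ := by group
      _ = (s * z) * g * (s * z)⁻¹ := by rw [hsz.eq]
      _ = _ := by group
  have hββ : ∀ g, β (β g) = g := fun g => by
    show s * (s * g * s⁻¹) * s⁻¹ = g
    rw [inv_of_orderTwo hs, show s * (s * g * s) * s = (s * s) * g * (s * s) by group,
      mul_self_of_orderTwo hs, one_mul, mul_one]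
  have hαW : ∀ {g}, g ∈ W → α g ∈ W := fun {g} hg => hWn.conj_mem g hg z
  have hβW : ∀ {g}, g ∈ W → β g ∈ W := fun {g} hg => hWn.conj_mem g hg s
  have uniq : ∀ {a b : G}, a ∈ W → b ∈ W → a * a = b * b → a = b := fun {a b} ha hb h =>
    eq_of_sq_eq (odd_orderOf_of_mem hW ha) (odd_orderOf_of_mem hW hb) h
  have hsz_iff : ∀ {k : G}, α k = k⁻¹ → (Commute k (s * z) ↔ β k = k⁻¹) := fun {k} hk => by
    have h1 : s * z * k * (s * z)⁻¹ = β (α k) := by
      show _ = s * (z * k * z⁻¹) * s⁻¹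
      group
    constructor
    · intro hc
      rw [← hc.eq, mul_inv_cancel_right, hk, map_inv] at h1
      exact inv_eq_iff_eq_inv.1 h1.symm
    · intro hb
      rw [hk, map_inv, hb, inv_inv, mul_inv_eq_iff_eq_mul] at h1
      exact h1.symm
  have hs_iff : ∀ {k : G}, Commute k s ↔ β k = k := fun {k} => by
    show _ ↔ s * k * s⁻¹ = k
    rw [mul_inv_eq_iff_eq_mul]
    exact ⟨fun h => h.eq.symm, fun h => h.symm⟩
  let A := {k : G // Odd (orderOf k) ∧ z * k * z⁻¹ = k⁻¹ ∧ Commute k (s * z)}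
  let B := {k : G // Odd (orderOf k) ∧ z * k * z⁻¹ = k⁻¹ ∧ Commute k s}
  have hAW : ∀ a : A, a.1 ∈ W := fun a => oddInv_mem_oddCore hz ⟨a.2.1, a.2.2.1⟩
  have hBW : ∀ b : B, b.1 ∈ W := fun b => oddInv_mem_oddCore hz ⟨b.2.1, b.2.2.1⟩
  let e : A × B → {k : G // k ∈ (⊤ : Subgroup G) ∧ OddInv z k} := fun q =>
    have h := existsUnique_oddInv hz (H := ⊤) (g := q.1.1 * q.2.1)
      (mem_normalizer_iff.2 fun _ => by simp) (mem_top _)
    ⟨h.choose, mem_top _, h.choose_spec.2.1⟩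
  have hesq : ∀ q, (e q).1 * (e q).1 = q.1.1 * (q.2.1 * q.2.1) * q.1.1 := by
    intro q
    have hinv : z * (q.1.1 * (q.2.1 * q.2.1) * q.1.1) * z⁻¹ =
        (q.1.1 * (q.2.1 * q.2.1) * q.1.1)⁻¹ := by
      show α _ = _
      rw [map_mul, map_mul, map_mul, show α q.1.1 = q.1.1⁻¹ from q.1.2.2.1,
        show α q.2.1 = q.2.1⁻¹ from q.2.2.2.1]
      group
    have h := existsUnique_oddInv hz (H := ⊤) (g := q.1.1 * q.2.1)
      (mem_normalizer_iff.2 fun _ => by simp) (mem_top _)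
    obtain ⟨r, hr, hr2⟩ := exists_sq_eq hW (mul_mem (mul_mem (hAW q.1)
      (mul_mem (hBW q.2) (hBW q.2))) (hAW q.1))
    have hrinv : z * r * z⁻¹ = r⁻¹ := uniq (hαW hr) (inv_mem hr) (by
      show α r * α r = _
      rw [← map_mul, hr2, ← mul_inv_rev, hr2]
      exact hinv)
    have hrc : (q.1.1 * q.2.1)⁻¹ * r ∈ centralizer ({z} : Set G) := by
      refine mem_centralizer_singleton_iff.2 ?_
      have ea : z * q.1.1 * z⁻¹ = q.1.1⁻¹ := q.1.2.2.1
      have eb : z * q.2.1 * z⁻¹ = q.2.1⁻¹ := q.2.2.2.1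
      have hh : z * ((q.1.1 * q.2.1)⁻¹ * r) * z⁻¹ = (q.1.1 * q.2.1)⁻¹ * r := by
        calc z * ((q.1.1 * q.2.1)⁻¹ * r) * z⁻¹
            = (z * q.2.1 * z⁻¹)⁻¹ * (z * q.1.1 * z⁻¹)⁻¹ * (z * r * z⁻¹) := by group
          _ = q.2.1 * q.1.1 * r⁻¹ := by rw [ea, eb, hrinv, inv_inv, inv_inv]
          _ = (q.1.1 * q.2.1)⁻¹ * (q.1.1 * (q.2.1 * q.2.1) * q.1.1) * r⁻¹ := by group
          _ = (q.1.1 * q.2.1)⁻¹ * r := by rw [← hr2]; group
      rw [mul_inv_eq_iff_eq_mul] at hh
      exact hh.symm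
    rw [show (e q).1 = r from (h.choose_spec.2.2.2 r ⟨odd_orderOf_of_mem hW hr, hrinv⟩ hrc).symm, hr2]
  have hbij : Function.Bijective e := by
    constructor
    · rintro ⟨a, b⟩ ⟨a', b'⟩ h
      have hM := (hesq (a, b)).symm.trans ((congrArg (fun k => k.1 * k.1) h).trans (hesq (a', b')))
      have hfix : ∀ b : B, β b.1 = b.1 := fun b => hs_iff.1 b.2.2.2
      have hneg : ∀ a : A, β a.1 = a.1⁻¹ := fun a => (hsz_iff a.2.2.1).1 a.2.2.2
      have hN := congrArg β hM
      simp only [map_mul, hfix, hneg] at hN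
      set u := a'.1 * a'.1
      set v := a.1 * a.1
      set N := a.1⁻¹ * (b.1 * b.1) * a.1⁻¹ with hNdef
      have e1 : v * N * v = u * N * u := by
        calc v * N * v = a.1 * (b.1 * b.1) * a.1 := by simp only [v, hNdef]; group
          _ = a'.1 * (b'.1 * b'.1) * a'.1 := hM
          _ = u * (a'.1⁻¹ * (b'.1 * b'.1) * a'.1⁻¹) * u := by simp only [u]; group
          _ = u * N * u := by rw [← hN]
      have hNW : N ∈ W := mul_mem (mul_mem (inv_mem (hAW a)) (mul_mem (hBW b) (hBW b))) (inv_mem (hAW a))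
      have e2 : v * N = u * N := uniq (mul_mem (mul_mem (hAW a) (hAW a)) hNW)
        (mul_mem (mul_mem (hAW a') (hAW a')) hNW) (by
          calc v * N * (v * N) = (v * N * v) * N := by group
            _ = (u * N * u) * N := by rw [e1]
            _ = u * N * (u * N) := by group)
      have haa : a.1 = a'.1 := uniq (hAW a) (hAW a') (mul_right_cancel e2)
      obtain rfl : a = a' := Subtype.ext haa
      obtain rfl : b = b' := Subtype.ext (uniq (hBW b) (hBW b') (mul_left_cancel (mul_right_cancel hM)))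
      rfl
    · rintro ⟨k, -, hk⟩
      have hkW := oddInv_mem_oddCore hz hk
      set M := k * k with hM
      set N := β M with hN
      have hMW : M ∈ W := mul_mem hkW hkW
      have hαM : α M = M⁻¹ := by
        rw [hM, map_mul, show α k = k⁻¹ from hk.2, mul_inv_rev]
      have hαN : α N = N⁻¹ := by rw [hN, hcc, hαM, map_inv]
      have hβN : β N = M := hββ M
      obtain ⟨r, hr, hr2⟩ := exists_sq_eq hW (mul_mem hMW (hβW hMW))
      rw [← hN] at hr2
      have hNW : N ∈ W := hβW hMW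
      set u := r * N⁻¹ with hu
      have huW : u ∈ W := mul_mem hr (inv_mem hNW)
      have hαr : α r = N * r⁻¹ * N⁻¹ := uniq (hαW hr) (mul_mem (mul_mem hNW (inv_mem hr)) (inv_mem hNW)) (by
        rw [← map_mul, hr2, map_mul, hαM, hαN]
        calc M⁻¹ * N⁻¹ = N * (M * N)⁻¹ * N⁻¹ := by group
          _ = N * (r * r)⁻¹ * N⁻¹ := by rw [hr2]
          _ = _ := by group)
      have hαu : α u = u⁻¹ := by
        rw [hu, map_mul, map_inv, hαr, hαN]
        group
      have hβr : β r = N * r⁻¹ * M := uniq (hβW hr) (mul_mem (mul_mem hNW (inv_mem hr)) hMW) (by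
        rw [← map_mul, hr2, map_mul, hβN]
        show N * M = _
        have hmid : r⁻¹ * (M * N) * r⁻¹ = 1 := by rw [← hr2]; group
        calc N * M = N * (r⁻¹ * (M * N) * r⁻¹) * M := by rw [hmid, mul_one]
          _ = _ := by group)
      have hβu : β u = u⁻¹ := by
        rw [hu, map_mul, map_inv, hβr, hβN]
        group
      obtain ⟨a, haW, ha2⟩ := exists_sq_eq hW huW
      have hαa : α a = a⁻¹ := uniq (hαW haW) (inv_mem haW) (by
        rw [← map_mul, ha2, hαu, ← ha2, mul_inv_rev])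
      have hβa : β a = a⁻¹ := uniq (hβW haW) (inv_mem haW) (by
        rw [← map_mul, ha2, hβu, ← ha2, mul_inv_rev])
      set Bv := a⁻¹ * M * a⁻¹ with hBv
      have hBvW : Bv ∈ W := mul_mem (mul_mem (inv_mem haW) hMW) (inv_mem haW)
      have huNu : u * N * u = M := by
        calc u * N * u = (r * r) * N⁻¹ := by rw [hu]; group
          _ = M := by rw [hr2]; group
      have hαB : α Bv = Bv⁻¹ := by
        rw [hBv, map_mul, map_mul, map_inv, hαa, hαM]
        group
      have hβB : β Bv = Bv := by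
        rw [hBv, map_mul, map_mul, map_inv, hβa, ← hN]
        conv_rhs => rw [← huNu, ← ha2]
        group
      obtain ⟨b, hbW, hb2⟩ := exists_sq_eq hW hBvW
      have hαb : α b = b⁻¹ := uniq (hαW hbW) (inv_mem hbW) (by
        rw [← map_mul, hb2, hαB, ← hb2, mul_inv_rev])
      have hβb : β b = b := uniq (hβW hbW) hbW (by rw [← map_mul, hb2, hβB])
      refine ⟨(⟨a, odd_orderOf_of_mem hW haW, hαa, (hsz_iff hαa).2 hβa⟩,
        ⟨b, odd_orderOf_of_mem hW hbW, hαb, hs_iff.2 hβb⟩), Subtype.ext ?_⟩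
      refine uniq (oddInv_mem_oddCore hz (e _).2.2) hkW ?_
      rw [hesq]
      show a * (b * b) * a = M
      rw [hb2, hBv]
      group
  have hcard := Nat.card_congr (Equiv.ofBijective e hbij)
  rw [Nat.card_prod, card_oddInv hz (H := ⊤) (mem_normalizer_iff.2 fun _ => by simp),
    top_inf_eq, relIndex_top_right] at hcard
  rw [mul_assoc, hcard, card_mul_index]

end Cfsg.Lib.Invol
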